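import Cfsg.Agent.H492.IMHe
import Cfsg.Agent.H536.NB.Rows

/-!
# `He` has a nonprincipal `p`-block, `p` odd (helper536)

`p = 3, 5, 7`: a character of defect zero of `C(x) / ⟨x⟩` (the data of helper492's Itô-Michler row).
-/

set_option autoImplicit false
set_option maxRecDepth 100000

namespace Cfsg.Agent.H536.NB.He

open Subgroup Cfsg
open Cfsg.Spor.He (Gen)
open Cfsg.Agent.SporadicB.HePerm (act wd)
open Cfsg.Agent.FixBN.HeStab Cfsg.Agent.KFacts.He.Lv Cfsg.Agent.CpAutHe.Cnt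
open Cfsg.Agent.H492.IMHeCnt Cfsg.Agent.H492.IMHeDat Cfsg.Agent.H492.IMTools Cfsg.Agent.H33
open Cfsg.Agent.H492.IMHe
open Cfsg.Agent.H7.NBp Cfsg.Agent.H718.NBIH Cfsg.Agent.H536.NB.Tools Cfsg.Agent.H536.NB.Rows

theorem nb3 : NB 3 Cfsg.Spor.He := by
  have hp := pair (p := 3) XB3 YB3 _ o3 oy3 (by decide +kernel) (by decide +kernel)
    (by norm_num) qB3
  have hle : Nat.card (centralizer ({wd XB3} : Set Cfsg.Spor.He)) ≤ 126 * (4 * 1) :=
    qA3 _ (bd_one _ _)
  have h7 : 7 ∣ Nat.card (centralizer ({wd XB3} : Set Cfsg.Spor.He)) :=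
    dvd_cent (comm_of_chk (by decide +kernel)) oz37
  have h4 : 4 ∣ Nat.card (centralizer ({wd XB3} : Set Cfsg.Spor.He)) :=
    dvd_cent (comm_of_chk (by decide +kernel)) o4'
  have h0 : 0 < Nat.card (centralizer ({wd XB3} : Set Cfsg.Spor.He)) := Nat.card_pos
  obtain ⟨m, hm⟩ := hp.1
  have h3 := arith3 hle h7 h4 h0 hm
  refine NB_of_pair (x := wd XB3) (y := wd YB3) o3 oy3 (comm_of_chk (by decide +kernel))
    (not_mem_zpowers_of (by norm_num) o3 (by decide +kernel)) hp.2 hm h3 {1, 4, 7} ?_ ?_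
  · intro n hn
    simp only [Finset.mem_insert, Finset.mem_singleton] at hn
    rcases hn with rfl | rfl | rfl
    exacts [⟨by norm_num, _, comm_of_chk (by decide +kernel), o1⟩,
      ⟨by norm_num, _, comm_of_chk (by decide +kernel), o4'⟩,
      ⟨by norm_num, _, comm_of_chk (by decide +kernel), oz37⟩]
  · intro _
    exact lt_of_lt_of_le (Nat.mod_lt m (by norm_num)) (by decide)

theorem nb5 : NB 5 Cfsg.Spor.He := by
  have hp := pair (p := 5) XB5 YB5 _ o5 oy5 (by decide +kernel) (by decide +kernel)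
    (by norm_num) qB5
  have hle : Nat.card (centralizer ({wd XB5} : Set Cfsg.Spor.He)) ≤ 150 * (2 * 1) :=
    qA5 _ (bd_one _ _)
  have h3 : 3 ∣ Nat.card (centralizer ({wd XB5} : Set Cfsg.Spor.He)) :=
    dvd_cent (comm_of_chk (by decide +kernel)) oz53
  have h2 : 2 ∣ Nat.card (centralizer ({wd XB5} : Set Cfsg.Spor.He)) :=
    dvd_cent (comm_of_chk (by decide +kernel)) o2
  have h0 : 0 < Nat.card (centralizer ({wd XB5} : Set Cfsg.Spor.He)) := Nat.card_pos
  obtain ⟨m, hm⟩ := hp.1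
  have hm' := arith5 hle h3 h2 h0 hm
  have hm5 : ¬ 5 ∣ m := by rcases hm' with rfl | rfl <;> decide
  refine NB_of_pair (x := wd XB5) (y := wd YB5) o5 oy5 (comm_of_chk (by decide +kernel))
    (not_mem_zpowers_of (by norm_num) o5 (by decide +kernel)) hp.2 hm hm5 {1, 2, 3} ?_ ?_
  · intro n hn
    simp only [Finset.mem_insert, Finset.mem_singleton] at hn
    rcases hn with rfl | rfl | rfl
    exacts [⟨by norm_num, _, comm_of_chk (by decide +kernel), o1⟩,
      ⟨by norm_num, _, comm_of_chk (by decide +kernel), o2⟩,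
      ⟨by norm_num, _, comm_of_chk (by decide +kernel), oz53⟩]
  · intro _
    rcases hm' with rfl | rfl <;> decide

theorem nb7 : NB 7 Cfsg.Spor.He := by
  have hp := pair (p := 7) XB7 YB7 _ o7 oy7 (by decide +kernel) (by decide +kernel)
    (by norm_num) qB7
  have hle : Nat.card (centralizer ({wd XB7} : Set Cfsg.Spor.He)) ≤ 1176 :=
    Cfsg.Agent.CpAutHe.Bound.card0
  have h3 : 3 ∣ Nat.card (centralizer ({wd XB7} : Set Cfsg.Spor.He)) :=
    dvd_cent (comm_of_chk (by decide +kernel)) oz73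
  have h4 : 4 ∣ Nat.card (centralizer ({wd XB7} : Set Cfsg.Spor.He)) :=
    dvd_cent (comm_of_chk (by decide +kernel)) o4
  have h0 : 0 < Nat.card (centralizer ({wd XB7} : Set Cfsg.Spor.He)) := Nat.card_pos
  obtain ⟨m, hm⟩ := hp.1
  have hm' := arith7 hle h3 h4 h0 hm
  have hm7 : ¬ 7 ∣ m := by rcases hm' with rfl | rfl <;> decide
  refine NB_of_pair (x := wd XB7) (y := wd YB7) o7 oy7 (comm_of_chk (by decide +kernel))
    (not_mem_zpowers_of (by norm_num) o7 (by decide +kernel)) hp.2 hm hm7 {1, 2, 3, 4} ?_ ?_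
  · intro n hn
    simp only [Finset.mem_insert, Finset.mem_singleton] at hn
    rcases hn with rfl | rfl | rfl | rfl
    exacts [⟨by norm_num, _, comm_of_chk (by decide +kernel), o1⟩,
      ⟨by norm_num, _, comm_of_chk (by decide +kernel), o2⟩,
      ⟨by norm_num, _, comm_of_chk (by decide +kernel), oz73⟩,
      ⟨by norm_num, _, comm_of_chk (by decide +kernel), o4⟩]
  · rcases hm' with rfl | rfl
    · intro h; exact absurd h (by decide)
    · intro _; decide

theorem nb17 : NB 17 Cfsg.Spor.He := NB_of_IM im17 (by rw [card_he]; norm_num)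

/-- **`He` has a nonprincipal `p`-block, `p` odd.** -/
theorem nb_he {p : ℕ} [hp : Fact p.Prime] (h2 : p ≠ 2) (S : Type) [Group S] [Finite S] [IsSimpleGroup S]
    (h : Cfsg.Spor.IsoHe S) (_ih : IH p (Nat.card S)) : NB p S := by
  obtain ⟨e⟩ := h
  by_cases hd : p ∣ Nat.card S
  swap
  · exact NB.of_not_dvd hd
  rw [Nat.card_congr e.toEquiv, card_he] at hd
  have h1 : (4030387200 : ℕ) = 2 ^ 10 * 3 ^ 3 * 5 ^ 2 * 7 ^ 3 * 17 := by norm_num
  rw [h1] at hd
  have hc : p = 2 ∨ p = 3 ∨ p = 5 ∨ p = 7 ∨ p = 17 := by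
    have hpp := hp.out
    rcases (Nat.Prime.dvd_mul hpp).1 hd with hd | hd
    · rcases (Nat.Prime.dvd_mul hpp).1 hd with hd | hd
      · rcases (Nat.Prime.dvd_mul hpp).1 hd with hd | hd
        · rcases (Nat.Prime.dvd_mul hpp).1 hd with hd | hd
          · exact Or.inl ((Nat.prime_dvd_prime_iff_eq hpp (by norm_num)).1 (hpp.dvd_of_dvd_pow hd))
          · exact Or.inr (Or.inl
              ((Nat.prime_dvd_prime_iff_eq hpp (by norm_num)).1 (hpp.dvd_of_dvd_pow hd)))
        · exact Or.inr (Or.inr (Or.inl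
            ((Nat.prime_dvd_prime_iff_eq hpp (by norm_num)).1 (hpp.dvd_of_dvd_pow hd))))
      · exact Or.inr (Or.inr (Or.inr (Or.inl
          ((Nat.prime_dvd_prime_iff_eq hpp (by norm_num)).1 (hpp.dvd_of_dvd_pow hd)))))
    · exact Or.inr (Or.inr (Or.inr (Or.inr
        ((Nat.prime_dvd_prime_iff_eq hpp (by norm_num)).1 hd))))
  rcases hc with rfl | rfl | rfl | rfl | rfl
  exacts [absurd rfl h2, NB.iso e.symm nb3, NB.iso e.symm nb5, NB.iso e.symm nb7, NB.iso e.symm nb17]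

end Cfsg.Agent.H536.NB.He
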